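import Cfsg.Agent.H866.D4Wf.Row

/-!
# S3509, `³D₄(q)`: the classes of outer automorphisms of order three, `3 ∤ q` (helper866)

* `classes` : an automorphism of order three which is not inner is conjugate to `st q τ` or to
  `conj (Φ₀ A) * st q τ`, `A ∈ SL₂(F_q)`, `A ^ 3 = 1`, `A ≠ 1`, `τ ≠ 1`.
-/

set_option autoImplicit false
set_option linter.unusedSectionVars false
set_option maxHeartbeats 400000

namespace Cfsg.Agent.H866.TD

open CoxeterSystem Cfsg.Agent.ChevalleyStructure.CoxeterGeom Cfsg.Agent.Tits.Roots Cfsg.Agent.Tits.Core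
  Cfsg.Agent.Tits.Exchange Cfsg.Agent.Nodes.Reps Cfsg.Agent.Nodes.BNOf Cfsg.Agent.Nodes.StabComb
  Cfsg.Agent.Nodes.Bruhat Cfsg.Agent.Nodes.OppDec Cfsg.Agent.Nodes.LeviDec Cfsg.Agent.Nodes.RGDTwGen
  Cfsg.Agent.Nodes.RGDChev Cfsg.Agent.Nodes.RGDFold Cfsg.Agent.Nodes.RGDFoldSL
open Cfsg.Agent.KFacts.RgdOpp Cfsg.Agent.KFacts.RgdAut Cfsg.Agent.KFacts.RgdDiag Cfsg.Agent.KFacts.RgdRigid
  Cfsg.Agent.KFacts.RgdField Cfsg.Agent.KFacts.RgdTau Cfsg.Agent.KFacts.RgdNodes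
open Cfsg.Lie Cfsg.Agent.ChevalleyStructure Cfsg.Agent.ChevalleyStructure.Elts
open Cfsg.Agent.ChevalleyStructure.SL2Hom (up lo mem_closure_SL2)
open Cfsg.Agent.KFacts.TwDFour.Out
open Cfsg.Agent.Nodes.RGDTwD4 Cfsg.Agent.Nodes.RGDTwNode.D4
open Cfsg.Agent.CpAut.RgdFix Cfsg.Agent.CpAut.RgdConj Cfsg.Agent.CpAut.RgdTwStd Cfsg.Agent.CpAut.RgdTwD4
open Cfsg.Agent.H28.FamFour (st_mul st_one)
open Cfsg.Agent.H866.D4Wf.Frame Cfsg.Agent.H866.D4Wf.SLThree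

variable {K : Type} [Field K] [Fintype K] {q : ℕ} (hK : Fintype.card K = q ^ 3)
  {φ : K →+* K} (hφ : ∀ x, φ x = x ^ q)

/-- Hilbert 90 for an automorphism of order three -/
theorem hilbert {σ : K ≃+* K} (hσ : ∀ a, σ (σ (σ a)) = a) (hne : ∃ a, σ a ≠ a) {c : K}
    (hc : c * σ c * σ (σ c) = 1) : ∃ u : K, u ≠ 0 ∧ c * σ u = u := by
  obtain ⟨l, hl⟩ := exists_indep hσ hne c (c * σ c)
  refine ⟨_, hl, ?_⟩
  simp only [map_add, map_mul, hσ]
  linear_combination l * hc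

include hK in
/-- the scalars of the short root group -/
theorem exists_T (hq : IsPrimePow q) {u : K} (hu : u ≠ 0) : ∃ s ∈ T K q, (chD hφ hK 1 s : K) = u := by
  obtain ⟨e, he⟩ : ∃ e : KD φ 1, (e : K) = (u ^ ((q ^ 2 + q) / 2))⁻¹ := ⟨⟨_, mem_KD1 hK hφ _⟩, rfl⟩
  have hNf : φ (u ^ (q ^ 2 + q + 1))⁻¹ = (u ^ (q ^ 2 + q + 1))⁻¹ := by
    rw [map_inv₀, hφ, ← pow_mul]
    congr 1
    have h1 : (q ^ 2 + q + 1) * q = Fintype.card K - 1 + (q ^ 2 + q + 1) := by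
      rw [hK]
      have h2 : 1 ≤ q ^ 3 := Nat.one_le_pow _ _ hq.pos
      have h3 : (q ^ 2 + q + 1) * q = q ^ 3 + q ^ 2 + q := by ring
      omega
    rw [h1, pow_add, FiniteField.pow_card_sub_one_eq_one u hu, one_mul]
  obtain ⟨d, hd⟩ : ∃ d : KD φ 0, (d : K) = (u ^ (q ^ 2 + q + 1))⁻¹ := ⟨⟨_, mem_Fx.2 hNf⟩, rfl⟩
  have he0 : e ≠ 0 := by
    intro h
    rw [h] at he
    exact inv_ne_zero (pow_ne_zero _ hu) he.symm
  have hd0 : d ≠ 0 := by
    intro h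
    rw [h] at hd
    exact inv_ne_zero (pow_ne_zero _ hu) hd.symm
  refine ⟨PhiD hφ hK 1 (hS e) * PhiD hφ hK 0 (hS d), mul_mem (PhiD_hS hφ hK 1 e he0) (PhiD_hS hφ hK 0 d hd0), ?_⟩
  rw [ch_mul hK hφ (PhiD_hS hφ hK 1 e he0) (PhiD_hS hφ hK 0 d hd0)]
  show (chD hφ hK 1 (PhiD hφ hK 1 (hS e)) : K) * (chD hφ hK 1 (PhiD hφ hK 0 (hS d)) : K) = u
  rw [ch01 hφ hK d hd0, chD_hS hφ hK 1 e he0, hd, inv_inv]
  show (e : K) ^ 2 * _ = u
  have h2 : (q ^ 2 + q) / 2 * 2 = q ^ 2 + q := by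
    apply Nat.div_mul_cancel
    have h3 : q ^ 2 + q = q * (q + 1) := by ring
    rw [h3]
    exact (Nat.even_mul_succ_self q).two_dvd
  rw [he, inv_pow, ← pow_mul, h2, pow_succ (n := q ^ 2 + q), ← mul_assoc, inv_mul_cancel₀ (pow_ne_zero _ hu), one_mul]

include hK in
theorem ch_st {t : ↥(twistedD4 K q)} (ht : t ∈ T K q) (τ : K ≃+* K) (i : Fin 2) :
    chD hφ hK i (st q τ t) = rs hφ τ i (chD hφ hK i t) := by
  have ht' : st q τ t ∈ T K q := (st_T τ t).2 ht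
  have h1 := act_up hK hφ ht' i 1
  have h2 := congrArg (st q τ) (act_up hK hφ ht i 1)
  rw [map_mul, map_mul, map_inv, st_up, st_up, map_one, map_mul, map_one, h1] at h2
  have h3 := (coordD hφ hK i).inj h2
  rwa [mul_one, mul_one] at h3

include hK in
/-- `q = 1 mod 3` -/
theorem classes_one (hq : IsPrimePow q) (h3 : q % 3 = 1) {x : MulAut ↥(twistedD4 K q)} (hx : x ^ 3 = 1)
    (hout : ∀ g, x ≠ MulAut.conj g) :
    ∃ (g : ↥(twistedD4 K q)) (A : Matrix.SpecialLinearGroup (Fin 2) (KD φ 0)) (τ : K ≃+* K), A ^ 3 = 1 ∧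
      τ ^ 3 = 1 ∧ τ ≠ 1 ∧ (MulAut.conj g)⁻¹ * x * MulAut.conj g = MulAut.conj (PhiD hφ hK 0 A) * st q τ := by
  obtain ⟨g, t, τ, ht, hτ, hg⟩ := norm_T hK hφ hq h3 hx
  have hτ1 : τ ≠ 1 := by
    rintro rfl
    have e1 : (st q (1 : K ≃+* K) : MulAut ↥(twistedD4 K q)) = 1 := by
      ext1 y
      exact st_one y
    rw [e1, mul_one] at hg
    refine hout (g * t * g⁻¹) ?_
    have e : x = MulAut.conj g * ((MulAut.conj g)⁻¹ * x * MulAut.conj g) * (MulAut.conj g)⁻¹ := by group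
    rw [e, hg, map_mul, map_mul, map_inv]
  have h3' := norm_eq_one hK hφ hτ (by rw [← hg]; exact conj_pow_three hK hφ hx)
  have ht1 : st q τ t ∈ T K q := (st_T τ t).2 ht
  have ht2 : st q τ (st q τ t) ∈ T K q := (st_T τ _).2 ht1
  obtain ⟨c₀, hc₀⟩ : ∃ c, c = chD hφ hK 0 t := ⟨_, rfl⟩
  obtain ⟨c₁, hc₁⟩ : ∃ c : K, c = (chD hφ hK 1 t : K) := ⟨_, rfl⟩
  have hN : ∀ i, chD hφ hK i t * rs hφ τ i (chD hφ hK i t) * rs hφ τ i (rs hφ τ i (chD hφ hK i t)) = 1 := by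
    intro i
    have h4 := congrArg (chD hφ hK i) h3'
    rw [ch_one hK hφ, ch_mul hK hφ (mul_mem ht ht1) ht2, ch_mul hK hφ ht ht1, ch_st hK hφ ht1, ch_st hK hφ ht] at h4
    exact h4
  have h0 : c₀ ^ 3 = 1 := by
    have h4 := hN 0
    rw [rs_zero hK hφ hq hτ, rs_zero hK hφ hq hτ, ← hc₀] at h4
    rw [pow_succ, pow_two]
    exact h4
  have h1 : c₁ * τ c₁ * τ (τ c₁) = 1 := by
    have h4 := congrArg (fun a : KD φ 1 => (a : K)) (hN 1)
    rw [hc₁]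
    exact h4
  have hc0 : c₀ ≠ 0 := by
    intro h
    rw [h, zero_pow three_ne_zero] at h0
    exact zero_ne_one h0
  have hc0' : (c₀ : K) ≠ 0 := fun h => hc0 (Subtype.ext h)
  have hτc : τ (c₀ : K) = c₀ := tau_fix hK hφ hq hτ (mem_Fx.1 c₀.2)
  have h0' : (c₀ : K) ^ 3 = 1 := by
    have := congrArg (fun a : KD φ 0 => (a : K)) h0
    exact this
  -- the correction
  obtain ⟨u, hu, hu'⟩ := hilbert (σ := τ) (fun a => by
      have : (τ ^ 3) a = a := by rw [hτ]; rfl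
      exact this) (by
      by_contra hcon
      push Not at hcon
      exact hτ1 (RingEquiv.ext hcon)) (c := c₁ * (c₀ : K)⁻¹) (by
      rw [map_mul, map_mul, map_inv₀, map_inv₀, hτc, hτc]
      field_simp
      linear_combination h1 - h0')
  obtain ⟨s, hs, hsu⟩ := exists_T hK hφ hq hu
  have hst : st q τ s ∈ T K q := (st_T τ s).2 hs
  obtain ⟨d, hd⟩ : ∃ d : KD φ 0, d = c₀⁻¹ := ⟨_, rfl⟩
  have hd0 : d ≠ 0 := by rw [hd]; exact inv_ne_zero hc0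
  have hd2 : d ^ 2 = c₀ := by
    rw [hd]
    field_simp
    rw [← h0]
  obtain ⟨t', ht'⟩ : ∃ t', t' = s⁻¹ * t * st q τ s := ⟨_, rfl⟩
  have ht'T : t' ∈ T K q := by rw [ht']; exact mul_mem (mul_mem (inv_mem hs) ht) hst
  have hch : ∀ i, chD hφ hK i s * chD hφ hK i t' = chD hφ hK i t * rs hφ τ i (chD hφ hK i s) := by
    intro i
    rw [← ch_mul hK hφ hs ht'T, ht', ← ch_st hK hφ hs, ← ch_mul hK hφ ht hst]
    congr 1
    group
  have hPd := PhiD_hS hφ hK 0 d hd0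
  have hcj : MulAut.conj ((PhiD hφ hK 0 (hS d))⁻¹ * t') = 1 := by
    refine conj_eq_one_of_ch hK hφ (mul_mem (inv_mem hPd) ht'T) fun i => ?_
    have h4 : chD hφ hK i (PhiD hφ hK 0 (hS d)) * chD hφ hK i ((PhiD hφ hK 0 (hS d))⁻¹ * t') = chD hφ hK i t' := by
      rw [← ch_mul hK hφ hPd (mul_mem (inv_mem hPd) ht'T), mul_inv_cancel_left]
    have h5 : chD hφ hK i (PhiD hφ hK 0 (hS d)) = chD hφ hK i t' := by
      have hi : i = 0 ∨ i = 1 := by fin_cases i <;> simp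
      rcases hi with rfl | rfl
      · rw [chD_hS hφ hK 0 d hd0, hd2, hc₀]
        have h6 := hch 0
        rw [rs_zero hK hφ hq hτ, mul_comm (chD hφ hK 0 t)] at h6
        exact (mul_left_cancel₀ (ch_ne_zero hK hφ hs 0) h6).symm
      · apply Subtype.ext
        rw [ch01 hφ hK d hd0]
        have h6 := congrArg (fun a : KD φ 1 => (a : K)) (hch 1)
        have h7 : (chD hφ hK 1 s : K) * (chD hφ hK 1 t' : K) = (chD hφ hK 1 t : K) * τ (chD hφ hK 1 s : K) := h6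
        rw [hsu, ← hc₁] at h7
        have h8 : (d : K) = (c₀ : K)⁻¹ := by rw [hd]; rfl
        rw [h8, inv_inv]
        apply mul_left_cancel₀ hu
        rw [h7]
        have h9 : c₁ * τ u = u * c₀ := by
          field_simp at hu'
          linear_combination hu'
        exact h9.symm
    rw [h5] at h4
    exact mul_left_cancel₀ (ch_ne_zero hK hφ ht'T i) (by rw [h4, mul_one])
  have hct : MulAut.conj t' = MulAut.conj (PhiD hφ hK 0 (hS d)) := by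
    rw [map_mul, map_inv] at hcj
    exact (inv_mul_eq_one.1 hcj).symm
  refine ⟨g * s, hS d, τ, ?_, hτ, hτ1, ?_⟩
  · apply Subtype.ext
    rw [Matrix.SpecialLinearGroup.coe_pow, coe_hS hd0]
    have h4 : d ^ 3 = 1 := by rw [hd, inv_pow, h0, inv_one]
    have h5 : (!![d, 0; 0, d⁻¹] : Matrix (Fin 2) (Fin 2) (KD φ 0)) ^ 3 = !![d ^ 3, 0; 0, (d ^ 3)⁻¹] := by
      rw [pow_succ, pow_two, Matrix.mul_fin_two, Matrix.mul_fin_two]
      ext i j
      fin_cases i <;> fin_cases j <;> simp [pow_succ, mul_assoc]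
    rw [h5, h4, inv_one, Matrix.SpecialLinearGroup.coe_one, Matrix.one_fin_two]
  · rw [map_mul, mul_inv_rev]
    have e : (MulAut.conj s)⁻¹ * (MulAut.conj g)⁻¹ * x * (MulAut.conj g * MulAut.conj s) =
        (MulAut.conj s)⁻¹ * ((MulAut.conj g)⁻¹ * x * MulAut.conj g) * MulAut.conj s := by group
    rw [e, hg, conj_st_conj hK hφ, ← ht', hct]

include hK in
/-- **The outer automorphisms of order three of `³D₄(q)`, `3 ∤ q`.** -/
theorem classes (hq : IsPrimePow q) (h3 : q % 3 ≠ 0) {x : MulAut ↥(twistedD4 K q)} (hx : x ^ 3 = 1)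
    (hout : ∀ g, x ≠ MulAut.conj g) :
    (∃ (g : ↥(twistedD4 K q)) (τ : K ≃+* K), τ ^ 3 = 1 ∧ τ ≠ 1 ∧
      (MulAut.conj g)⁻¹ * x * MulAut.conj g = st q τ) ∨
    (∃ (g : ↥(twistedD4 K q)) (A : Matrix.SpecialLinearGroup (Fin 2) (KD φ 0)) (τ : K ≃+* K), A ^ 3 = 1 ∧ A ≠ 1 ∧
      τ ^ 3 = 1 ∧ τ ≠ 1 ∧ (MulAut.conj g)⁻¹ * x * MulAut.conj g = MulAut.conj (PhiD hφ hK 0 A) * st q τ) := by
  have h12 : q % 3 = 1 ∨ q % 3 = 2 := by omega
  rcases h12 with h1 | h2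
  · obtain ⟨g, A, τ, hA, hτ, hτ1, hg⟩ := classes_one hK hφ hq h1 hx hout
    by_cases hA1 : A = 1
    · left
      rw [hA1, map_one, map_one, one_mul] at hg
      exact ⟨g, τ, hτ, hτ1, hg⟩
    · exact Or.inr ⟨g, A, τ, hA, hA1, hτ, hτ1, hg⟩
  · have hx1 : x ≠ 1 := fun h => hout 1 (by rw [h, map_one])
    have hinn : ∀ g z : ↥(twistedD4 K q), (MulAut.conj g)⁻¹ * x * MulAut.conj g = MulAut.conj z → False := by
      intro g z hg
      refine hout (g * z * g⁻¹) ?_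
      have e : x = MulAut.conj g * ((MulAut.conj g)⁻¹ * x * MulAut.conj g) * (MulAut.conj g)⁻¹ := by group
      rw [e, hg, map_mul, map_mul, map_inv]
    rcases two_cases hK hφ hq h2 hx hx1 with ⟨g, A, τ, hA, hA1, hτ, hg⟩ | ⟨g, τ, hτ, hτ1, hg⟩ | ⟨g, hg⟩
    · right
      refine ⟨g, A, τ, hA, ?_, hτ, ?_, hg⟩
      · rintro rfl
        exact hA1 (by simp)
      · rintro rfl
        have e1 : (st q (1 : K ≃+* K) : MulAut ↥(twistedD4 K q)) = 1 := by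
          ext1 y
          exact st_one y
        rw [e1, mul_one] at hg
        exact hinn g _ hg
    · exact Or.inl ⟨g, τ, hτ, hτ1, hg⟩
    · exact absurd hg fun h => hinn g _ h

end Cfsg.Agent.H866.TD
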