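import Cfsg.Agent.H866.TD.Cls

/-!
# S3509, `³D₄(q)`: the second class of outer automorphisms of order three, `q = 2 mod 3`: root groups (helper866)

* `PJ_le_normalizer_V2` : `P_J` normalises `X_12 X_13 X_23`;
* `eq_one_V3` : no fixed points on `X_13 X_23`.
-/

set_option autoImplicit false
set_option linter.unusedSectionVars false
set_option maxHeartbeats 400000

namespace Cfsg.Agent.H866.TD

open CoxeterSystem Cfsg.Agent.ChevalleyStructure.CoxeterGeom Cfsg.Agent.Tits.Roots Cfsg.Agent.Tits.Core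
  Cfsg.Agent.Tits.Exchange Cfsg.Agent.Nodes.Reps Cfsg.Agent.Nodes.BNOf Cfsg.Agent.Nodes.StabComb
  Cfsg.Agent.Nodes.Bruhat Cfsg.Agent.Nodes.OppDec Cfsg.Agent.Nodes.LeviDec Cfsg.Agent.Nodes.RGDTwGen
  Cfsg.Agent.Nodes.RGDChev Cfsg.Agent.Nodes.RGDFold Cfsg.Agent.Nodes.RGDFoldSL
open Cfsg.Agent.KFacts.RgdOpp Cfsg.Agent.KFacts.RgdAut Cfsg.Agent.KFacts.RgdDiag Cfsg.Agent.KFacts.RgdRigid
  Cfsg.Agent.KFacts.RgdField Cfsg.Agent.KFacts.RgdTau Cfsg.Agent.KFacts.RgdNodes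
open Cfsg.Lie Cfsg.Agent.ChevalleyStructure Cfsg.Agent.ChevalleyStructure.Elts
open Cfsg.Agent.ChevalleyStructure.SL2Hom (up lo mem_closure_SL2)
open Cfsg.Agent.KFacts.TwDFour.Out
open Cfsg.Agent.Nodes.RGDTwD4 Cfsg.Agent.Nodes.RGDTwNode.D4
open Cfsg.Agent.CpAut.RgdFix Cfsg.Agent.CpAut.RgdConj Cfsg.Agent.CpAut.RgdTwStd Cfsg.Agent.CpAut.RgdTwD4
open Cfsg.Agent.H28.FamFour (st_mul st_one)
open Cfsg.Agent.H866.D4Wf.Frame Cfsg.Agent.H866.D4Wf.SLThree

variable {K : Type} [Field K] [Fintype K] {q : ℕ} (hK : Fintype.card K = q ^ 3)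
  {φ : K →+* K} (hφ : ∀ x, φ x = x ^ q)

theorem c_12 : ∀ k < chevD4.nroots, (V chevD4 Nodes.RGDTwD4.J k = ![1, 2] ↔ k ∈ [17, 20, 21]) := by decide +kernel

/-- `X_12 X_13 X_23` -/
noncomputable abbrev V2 (φ : K →+* K) (q : ℕ) : Subgroup ↥(twistedD4 K q) :=
  RGD.Sup (X φ q) {![1, 2], ![1, 3], ![2, 3]}

section
include hK hφ

theorem comm_sr0_12 {a b : ↥(twistedD4 K q)} (ha : a ∈ X φ q ![1, 0]) (hb : b ∈ X φ q ![1, 2]) : a * b = b * a :=
  X_comm_of hK hφ c_sr0 (by decide +kernel) c_12 (by decide +kernel) (by decide +kernel) ha hb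
theorem comm_nsr0_12 {a b : ↥(twistedD4 K q)} (ha : a ∈ X φ q ![-1, 0]) (hb : b ∈ X φ q ![1, 2]) : a * b = b * a :=
  X_comm_of hK hφ c_nsr0 (by decide +kernel) c_12 (by decide +kernel) (by decide +kernel) ha hb
theorem comm_12_13 {a b : ↥(twistedD4 K q)} (ha : a ∈ X φ q ![1, 2]) (hb : b ∈ X φ q ![1, 3]) : a * b = b * a :=
  X_comm_of hK hφ c_12 (by decide +kernel) c_del (by decide +kernel) (by decide +kernel) ha hb
theorem comm_12_23 {a b : ↥(twistedD4 K q)} (ha : a ∈ X φ q ![1, 2]) (hb : b ∈ X φ q ![2, 3]) : a * b = b * a :=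
  X_comm_of hK hφ c_12 (by decide +kernel) c_the (by decide +kernel) (by decide +kernel) ha hb
theorem comm_11_13 {a b : ↥(twistedD4 K q)} (ha : a ∈ X φ q ![1, 1]) (hb : b ∈ X φ q ![1, 3]) : a * b = b * a :=
  X_comm_of hK hφ c_11 (by decide +kernel) c_del (by decide +kernel) (by decide +kernel) ha hb
theorem comm_11_23 {a b : ↥(twistedD4 K q)} (ha : a ∈ X φ q ![1, 1]) (hb : b ∈ X φ q ![2, 3]) : a * b = b * a :=
  X_comm_of hK hφ c_11 (by decide +kernel) c_the (by decide +kernel) (by decide +kernel) ha hb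

theorem exists_n_conj (i : Fin 2) {x y : Fin 2 → ℤ} (hx : x ∈ rts) (hxy : rep cs isCartan (cs.simple i) x = y)
    {b : ↥(twistedD4 K q)} (hb : b ∈ X φ q y) : ∃ a ∈ X φ q x, n hφ i * a * (n hφ i)⁻¹ = b := by
  obtain ⟨r, hr⟩ := CharP.exists K
  have : Fact r.Prime := ⟨CharP.char_is_prime K r⟩
  rw [← hxy, ← (rgd' hK hφ r).conj i x (isRoot_of_mem hx)] at hb
  obtain ⟨a, ha, rfl⟩ := hb
  exact ⟨a, ha, rfl⟩

theorem comm_nsr0_the' {a b : ↥(twistedD4 K q)} (ha : a ∈ X φ q ![-1, 0]) (hb : b ∈ X φ q ![2, 3]) :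
    a * b * a⁻¹ * b⁻¹ ∈ X φ q ![1, 3] := by
  obtain ⟨a', ha', rfl⟩ := exists_n_conj hK hφ 0 (x := ![1, 0]) (y := ![-1, 0]) (by decide)
    (by rw [rep0]; decide) ha
  obtain ⟨b', hb', rfl⟩ := exists_n_conj hK hφ 0 (x := ![1, 3]) (y := ![2, 3]) (by decide)
    (by rw [rep0]; decide) hb
  have h4 := n_conj hK hφ 0 (x := ![2, 3]) (by decide) (comm_sr0_del hK hφ ha' hb')
  rw [rep0, show (![3 - 2, 3] : Fin 2 → ℤ) = ![1, 3] by decide] at h4
  have h5 : n hφ 0 * a' * (n hφ 0)⁻¹ * (n hφ 0 * b' * (n hφ 0)⁻¹) * (n hφ 0 * a' * (n hφ 0)⁻¹)⁻¹ *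
      (n hφ 0 * b' * (n hφ 0)⁻¹)⁻¹ = n hφ 0 * (a' * b' * a'⁻¹ * b'⁻¹) * (n hφ 0)⁻¹ := by group
  rw [h5]
  exact h4

theorem comm_01_12 {a b : ↥(twistedD4 K q)} (ha : a ∈ X φ q ![0, 1]) (hb : b ∈ X φ q ![1, 2]) :
    a * b * a⁻¹ * b⁻¹ ∈ X φ q ![1, 3] := by
  obtain ⟨r, hr⟩ := CharP.exists K
  have : Fact r.Prime := ⟨CharP.char_is_prime K r⟩
  refine comm_mem_of_btwn (rgd' hK hφ r) (isRoot_of_mem (by decide)) (isRoot_of_mem (by decide)) (by decide) (by decide)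
    ?_ ha hb
  rintro z ⟨hz, m, a, b, hm, ha, hb, he⟩
  have h0 := congrFun he 0
  have h1 := congrFun he 1
  have hz' := root_mem hz
  simp only [rts, List.mem_cons, List.not_mem_nil, or_false] at hz'
  rcases hz' with rfl | rfl | rfl | rfl | rfl | rfl | rfl | rfl | rfl | rfl | rfl | rfl
  all_goals first | rfl | (exfalso; simp at h0 h1; omega)

theorem comm_11_12 {a b : ↥(twistedD4 K q)} (ha : a ∈ X φ q ![1, 1]) (hb : b ∈ X φ q ![1, 2]) :
    a * b * a⁻¹ * b⁻¹ ∈ X φ q ![2, 3] := by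
  obtain ⟨r, hr⟩ := CharP.exists K
  have : Fact r.Prime := ⟨CharP.char_is_prime K r⟩
  refine comm_mem_of_btwn (rgd' hK hφ r) (isRoot_of_mem (by decide)) (isRoot_of_mem (by decide)) (by decide) (by decide)
    ?_ ha hb
  rintro z ⟨hz, m, a, b, hm, ha, hb, he⟩
  have h0 := congrFun he 0
  have h1 := congrFun he 1
  have hz' := root_mem hz
  simp only [rts, List.mem_cons, List.not_mem_nil, or_false] at hz'
  rcases hz' with rfl | rfl | rfl | rfl | rfl | rfl | rfl | rfl | rfl | rfl | rfl | rfl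
  all_goals first | rfl | (exfalso; simp at h0 h1; omega)

end

theorem X12_le : X φ q ![1, 2] ≤ V2 φ q := RGD.le_Sup (by simp)
theorem X13_le : X φ q ![1, 3] ≤ V2 φ q := RGD.le_Sup (by simp)
theorem X23_le : X φ q ![2, 3] ≤ V2 φ q := RGD.le_Sup (by simp)

section
include hK hφ

/-- products -/
theorem mem_V2 {y : ↥(twistedD4 K q)} (hy : y ∈ V2 φ q) :
    ∃ a ∈ X φ q ![1, 2], ∃ b ∈ X φ q ![1, 3], ∃ c ∈ X φ q ![2, 3], y = a * (b * c) := by
  have h1 : ∀ a ∈ X φ q ![1, 2], ∀ d ∈ (X φ q ![1, 3] ⊔ X φ q ![2, 3] : Subgroup _), a * d = d * a := by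
    intro a ha
    have h2 : (X φ q ![1, 3] ⊔ X φ q ![2, 3] : Subgroup _) ≤ Subgroup.centralizer {a} := by
      refine sup_le (fun b hb => ?_) (fun b hb => ?_)
      · rw [Subgroup.mem_centralizer_singleton_iff]
        exact (comm_12_13 hK hφ ha hb).symm
      · rw [Subgroup.mem_centralizer_singleton_iff]
        exact (comm_12_23 hK hφ ha hb).symm
    intro d hd
    exact (Subgroup.mem_centralizer_singleton_iff.1 (h2 hd)).symm
  have hn : ∀ {A B : Subgroup ↥(twistedD4 K q)}, (∀ a ∈ A, ∀ b ∈ B, a * b = b * a) → ∀ {y}, y ∈ A ⊔ B →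
      ∃ a ∈ A, ∃ b ∈ B, y = a * b := by
    intro A B h y hy
    have h3 : A ≤ Subgroup.normalizer (B : Set ↥(twistedD4 K q)) := by
      intro a ha
      rw [Subgroup.mem_normalizer_iff]
      intro b
      constructor
      · intro hb
        rw [h a ha b hb, mul_inv_cancel_right]
        exact hb
      · intro hb
        have h4 := h a⁻¹ (inv_mem ha) _ hb
        have h5 : a * b * a⁻¹ = b := by
          have h6 : a⁻¹ * (a * b * a⁻¹) = b * a⁻¹ := by group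
          rw [h6] at h4
          exact (mul_right_cancel h4).symm
        rwa [h5] at hb
    have h4 : y ∈ ((A ⊔ B : Subgroup _) : Set ↥(twistedD4 K q)) := hy
    rw [Subgroup.coe_mul_of_left_le_normalizer_right _ _ h3, Set.mem_mul] at h4
    obtain ⟨l, hl, v, hv, e⟩ := h4
    exact ⟨l, hl, v, hv, e.symm⟩
  have h2 : V2 φ q ≤ X φ q ![1, 2] ⊔ (X φ q ![1, 3] ⊔ X φ q ![2, 3]) := by
    refine RGD.Sup_le fun x hx => ?_
    rcases hx with rfl | rfl | rfl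
    · exact le_sup_left
    · exact le_trans le_sup_left le_sup_right
    · exact le_trans le_sup_right le_sup_right
  obtain ⟨a, ha, d, hd, rfl⟩ := hn h1 (h2 hy)
  obtain ⟨b, hb, c, hc, rfl⟩ := hn (fun a ha b hb => comm_del_the hK hφ ha hb) hd
  exact ⟨a, ha, b, hb, c, hc, rfl⟩

/-- `P_J` normalises `X_12 X_13 X_23` -/
theorem PJ_conj_V2 {p v : ↥(twistedD4 K q)} (hp : p ∈ PJ cs isCartan (T K q) (X φ q) {0}) (hv : v ∈ V2 φ q) :
    p * v * p⁻¹ ∈ V2 φ q := by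
  obtain ⟨r, hr⟩ := CharP.exists K
  have : Fact r.Prime := ⟨CharP.char_is_prime K r⟩
  have hN : ∀ {S : Subgroup ↥(twistedD4 K q)}, (∀ s ∈ S, ∀ v ∈ X φ q ![1, 2], s * v * s⁻¹ ∈ V2 φ q) →
      (∀ s ∈ S, ∀ v ∈ X φ q ![1, 3], s * v * s⁻¹ ∈ V2 φ q) → (∀ s ∈ S, ∀ v ∈ X φ q ![2, 3], s * v * s⁻¹ ∈ V2 φ q) →
      S ≤ Subgroup.normalizer (V2 φ q : Set ↥(twistedD4 K q)) := by
    intro S h1 h2 h3
    have h4 : ∀ s ∈ S, ∀ v ∈ V2 φ q, s * v * s⁻¹ ∈ V2 φ q := by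
      intro s hs
      have h5 : V2 φ q ≤ (V2 φ q).comap (MulAut.conj s).toMonoidHom := by
        refine RGD.Sup_le fun x hx => ?_
        rcases hx with rfl | rfl | rfl
        · exact fun v hv => h1 s hs v hv
        · exact fun v hv => h2 s hs v hv
        · exact fun v hv => h3 s hs v hv
      exact fun v hv => h5 hv
    intro s hs
    rw [Subgroup.mem_normalizer_iff]
    intro v
    refine ⟨h4 s hs v, fun h => ?_⟩
    have h6 := h4 s⁻¹ (inv_mem hs) _ h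
    rwa [inv_inv, mul_assoc, inv_mul_cancel_right, inv_mul_cancel_left] at h6
  have hcm : ∀ {s v : ↥(twistedD4 K q)}, s * v = v * s → v ∈ V2 φ q → s * v * s⁻¹ ∈ V2 φ q := by
    intro s v h hv
    rwa [h, mul_inv_cancel_right]
  have hcm' : ∀ {s v : ↥(twistedD4 K q)}, s * v * s⁻¹ * v⁻¹ ∈ V2 φ q → v ∈ V2 φ q → s * v * s⁻¹ ∈ V2 φ q := by
    intro s v h hv
    have := mul_mem h hv
    rwa [inv_mul_cancel_right] at this
  have hT : T K q ≤ Subgroup.normalizer (V2 φ q : Set ↥(twistedD4 K q)) :=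
    hN (fun s hs v hv => X12_le (t_conj hK hφ (by decide) hs hv)) (fun s hs v hv => X13_le (t_conj hK hφ (by decide) hs hv))
      (fun s hs v hv => X23_le (t_conj hK hφ (by decide) hs hv))
  have h10 : X φ q ![1, 0] ≤ Subgroup.normalizer (V2 φ q : Set ↥(twistedD4 K q)) :=
    hN (fun s hs v hv => hcm (comm_sr0_12 hK hφ hs hv) (X12_le hv))
      (fun s hs v hv => hcm' (X23_le (comm_sr0_del hK hφ hs hv)) (X13_le hv))
      (fun s hs v hv => hcm (comm_sr0_the hK hφ hs hv) (X23_le hv))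
  have hn10 : X φ q ![-1, 0] ≤ Subgroup.normalizer (V2 φ q : Set ↥(twistedD4 K q)) :=
    hN (fun s hs v hv => hcm (comm_nsr0_12 hK hφ hs hv) (X12_le hv))
      (fun s hs v hv => hcm (comm_nsr0_del hK hφ hs hv) (X13_le hv))
      (fun s hs v hv => hcm' (X13_le (comm_nsr0_the' hK hφ hs hv)) (X23_le hv))
  have h01 : X φ q ![0, 1] ≤ Subgroup.normalizer (V2 φ q : Set ↥(twistedD4 K q)) :=
    hN (fun s hs v hv => hcm' (X13_le (comm_01_12 hK hφ hs hv)) (X12_le hv))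
      (fun s hs v hv => hcm (comm_sr1_del hK hφ hs hv) (X13_le hv))
      (fun s hs v hv => hcm (comm_sr1_the hK hφ hs hv) (X23_le hv))
  have h11 : X φ q ![1, 1] ≤ Subgroup.normalizer (V2 φ q : Set ↥(twistedD4 K q)) :=
    hN (fun s hs v hv => hcm' (X23_le (comm_11_12 hK hφ hs hv)) (X12_le hv))
      (fun s hs v hv => hcm (comm_11_13 hK hφ hs hv) (X13_le hv))
      (fun s hs v hv => hcm (comm_11_23 hK hφ hs hv) (X23_le hv))
  have hP : PJ cs isCartan (T K q) (X φ q) {0} ≤ Subgroup.normalizer (V2 φ q : Set ↥(twistedD4 K q)) := by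
    refine sup_le (sup_le hT (RGD.Sup_le ?_)) (RGD.Sup_le ?_)
    · rintro x ⟨hx, hx0⟩
      have h1 : ∀ x ∈ rts, x 1 = 0 → x = ![1, 0] ∨ x = ![-1, 0] := by decide
      rcases h1 x (root_mem hx) (hx0 1 (by simp)) with rfl | rfl
      · exact h10
      · exact hn10
    · rintro x ⟨hx, hx0, k, hk, hk'⟩
      have h1 : ∀ x ∈ rts, 0 < x 1 → x = ![0, 1] ∨ x = ![1, 1] ∨ x = ![1, 2] ∨ x = ![1, 3] ∨ x = ![2, 3] := by decide
      have hk1 : k = 1 := by
        fin_cases k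
        · simp at hk
        · rfl
      subst hk1
      rcases h1 x (root_mem hx) hk' with rfl | rfl | rfl | rfl | rfl
      · exact h01
      · exact h11
      · exact le_trans X12_le Subgroup.le_normalizer
      · exact le_trans X13_le Subgroup.le_normalizer
      · exact le_trans X23_le Subgroup.le_normalizer
  exact (Subgroup.mem_normalizer_iff.1 (hP hp) v).1 hv

/-- `[a, b] ≠ 1` for `1 ≠ a ∈ X_10`, `1 ≠ b ∈ X_13` -/
theorem comm_ne {a b : ↥(twistedD4 K q)} (ha : a ∈ X φ q ![1, 0]) (ha1 : a ≠ 1) (hb : b ∈ X φ q ![1, 3])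
    (h : a * b = b * a) : b = 1 := by
  have hb' := n_conj hK hφ 0 (x := ![1, 3]) (by decide) hb
  rw [rep0, show (![3 - 1, 3] : Fin 2 → ℤ) = ![2, 3] by decide] at hb'
  have ha' := n_conj hK hφ 0 (x := ![1, 0]) (by decide) ha
  rw [rep0, show (![0 - 1, 0] : Fin 2 → ℤ) = -sr 0 by decide] at ha'
  obtain ⟨s, hs⟩ := (mem_negX hK hφ 0 _).1 ha'
  have hs0 : s ≠ 0 := by
    rintro rfl
    apply ha1
    have h1 : lo (0 : KD φ 0) = 1 := by
      ext i j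
      fin_cases i <;> fin_cases j <;> simp [lo]
    rw [h1, map_one, mul_inv_eq_one] at hs
    exact mul_left_cancel (hs.trans (mul_one _).symm)
  have h1 := bruhat hK hφ (i := 0) (y := ![2, 3]) (by decide) (fun a ha b hb => comm_sr0_the hK hφ (sr0_eq ▸ ha) hb)
    (by rw [rep0]; decide) (A := lo s) (by simpa [lo] using hs0) hb' hb' (by
      rw [← hs]
      have h2 : n hφ 0 * a * (n hφ 0)⁻¹ * (n hφ 0 * b * (n hφ 0)⁻¹) * (n hφ 0 * a * (n hφ 0)⁻¹)⁻¹ =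
        n hφ 0 * (a * b * a⁻¹) * (n hφ 0)⁻¹ := by group
      rw [h2, h, mul_inv_cancel_right])
  rw [mul_inv_eq_one] at h1
  exact mul_left_cancel (h1.trans (mul_one _).symm)

/-- `[X_10, b] = X_23` -/
theorem exists_comm {b c : ↥(twistedD4 K q)} (hb : b ∈ X φ q ![1, 3]) (hb1 : b ≠ 1)
    (hc : c ∈ X φ q ![2, 3]) : ∃ a ∈ X φ q ![1, 0], a * b * a⁻¹ = c * b := by
  let f : ↥(X φ q ![1, 0]) → ↥(X φ q ![2, 3]) := fun a => ⟨a.1 * b * a.1⁻¹ * b⁻¹, comm_sr0_del hK hφ a.2 hb⟩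
  have hinj : Function.Injective f := by
    rintro ⟨a, ha⟩ ⟨a', ha'⟩ h
    have h1 : a * b * a⁻¹ * b⁻¹ = a' * b * a'⁻¹ * b⁻¹ := congrArg Subtype.val h
    have h2 : a * b * a⁻¹ = a' * b * a'⁻¹ := mul_right_cancel h1
    apply Subtype.ext
    by_contra hne
    refine hb1 (comm_ne hK hφ (a := a'⁻¹ * a) (mul_mem (inv_mem ha') ha) (fun h3 => hne ?_) hb ?_)
    · rw [inv_mul_eq_one] at h3
      exact h3.symm
    · have h3 : a'⁻¹ * a * b = a'⁻¹ * (a * b * a⁻¹) * a := by group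
      rw [h3, h2]
      group
  have hcard : Nat.card ↥(X φ q ![1, 0]) = Nat.card ↥(X φ q ![2, 3]) := by
    obtain ⟨r, hr⟩ := CharP.exists K
    have : Fact r.Prime := ⟨CharP.char_is_prime K r⟩
    have h1 : ∀ (i : Fin 2) (x y : Fin 2 → ℤ), x ∈ rts → rep cs isCartan (cs.simple i) x = y →
        Nat.card ↥(X φ q x) = Nat.card ↥(X φ q y) := by
      intro i x y hx hxy
      rw [← hxy, ← (rgd' hK hφ r).conj i x (isRoot_of_mem hx)]
      exact Nat.card_congr ((X φ q x).equivMapOfInjective _ (MulAut.conj (n hφ i)).injective).toEquiv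
    rw [h1 1 ![1, 0] ![1, 3] (by decide) (by rw [rep1]; decide), h1 0 ![1, 3] ![2, 3] (by decide) (by rw [rep0]; decide)]
  have hsurj : Function.Surjective f :=
    ((Nat.bijective_iff_injective_and_card f).2 ⟨hinj, hcard⟩).2
  obtain ⟨⟨a, ha⟩, h⟩ := hsurj ⟨c, hc⟩
  have h1 : a * b * a⁻¹ * b⁻¹ = c := congrArg Subtype.val h
  exact ⟨a, ha, by rw [← h1, inv_mul_cancel_right]⟩

/-- an element of `X_13 X_23` is conjugate in `Φ₀(SL₂)` to an element of `X_23` -/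
theorem exists_conj_23 {b c : ↥(twistedD4 K q)} (hb : b ∈ X φ q ![1, 3]) (hc : c ∈ X φ q ![2, 3]) :
    ∃ C, PhiD hφ hK 0 C * (b * c) * (PhiD hφ hK 0 C)⁻¹ ∈ X φ q ![2, 3] := by
  by_cases hb1 : b = 1
  · subst hb1
    exact ⟨1, by simpa using hc⟩
  · obtain ⟨a, ha, h⟩ := exists_comm hK hφ hb hb1 (inv_mem hc)
    obtain ⟨s, hs⟩ := (mem_X hφ hK 0 a).1 (sr0_eq ▸ ha)
    have h1 : a * (b * c) * a⁻¹ = b := by
      have h2 : a * c * a⁻¹ = c := by rw [comm_sr0_the hK hφ ha hc, mul_inv_cancel_right]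
      calc a * (b * c) * a⁻¹ = (a * b * a⁻¹) * (a * c * a⁻¹) := by group
        _ = b := by rw [h, h2, mul_assoc, comm_del_the hK hφ hb hc, inv_mul_cancel_left]
    obtain ⟨D, hD⟩ : ∃ D, PhiD hφ hK 0 D = n hφ 0 := by
      exact ⟨_, PhiD_wS hφ hK 0⟩
    refine ⟨D * up s, ?_⟩
    rw [map_mul, hD, ← hs]
    have h3 := n_conj hK hφ 0 (x := ![1, 3]) (by decide) hb
    rw [rep0, show (![3 - 1, 3] : Fin 2 → ℤ) = ![2, 3] by decide] at h3
    have h4 : n hφ 0 * a * (b * c) * (n hφ 0 * a)⁻¹ = n hφ 0 * (a * (b * c) * a⁻¹) * (n hφ 0)⁻¹ := by group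
    rw [h4, h1]
    exact h3

/-- no fixed points of `a` on `X_13 X_23` -/
theorem eq_one_V3 {A : Matrix.SpecialLinearGroup (Fin 2) (KD φ 0)}
    (hA : ∀ C : Matrix.SpecialLinearGroup (Fin 2) (KD φ 0), (C * A * C⁻¹).1 1 0 ≠ 0) {b c : ↥(twistedD4 K q)}
    (hb : b ∈ X φ q ![1, 3]) (hc : c ∈ X φ q ![2, 3])
    (h : PhiD hφ hK 0 A * (b * c) * (PhiD hφ hK 0 A)⁻¹ = b * c) : b * c = 1 := by
  obtain ⟨C, hC⟩ := exists_conj_23 hK hφ hb hc
  have h1 := bruhat hK hφ (i := 0) (y := ![2, 3]) (by decide) (fun a ha b hb => comm_sr0_the hK hφ (sr0_eq ▸ ha) hb)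
    (by rw [rep0]; decide) (hA C) hC hC (by
      have h2 : PhiD hφ hK 0 (C * A * C⁻¹) * (PhiD hφ hK 0 C * (b * c) * (PhiD hφ hK 0 C)⁻¹) *
          (PhiD hφ hK 0 (C * A * C⁻¹))⁻¹ =
          PhiD hφ hK 0 C * (PhiD hφ hK 0 A * (b * c) * (PhiD hφ hK 0 A)⁻¹) * (PhiD hφ hK 0 C)⁻¹ := by
        rw [map_mul, map_mul, map_inv]
        group
      rw [h2, h])
  rw [mul_inv_eq_one] at h1
  exact mul_left_cancel (h1.trans (mul_one _).symm)

end

end Cfsg.Agent.H866.TD
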