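import Cfsg.Agent.H866.TD.Two
import Cfsg.Agent.H911.TD.Psi
import Cfsg.Agent.H922.RG.MTwo

/-!
# S3509, `³D₄(q)`: the second class of outer automorphisms of order three, `q = 2 mod 3`: the base pair (helper866)
-/

set_option autoImplicit false
set_option linter.unusedSectionVars false
set_option maxHeartbeats 400000

namespace Cfsg.Agent.H866.TD

section abs

open Cfsg Cfsg.Agent.H398.RG

variable {H : Type*} [Group H] {p : ℕ} {G P V L X Y : Subgroup H} {g₀ : H}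

theorem eq_one_of_normal (hg₀ : g₀ ∈ G)
    (hL : ∀ y, y ∈ P → g₀⁻¹ * y * g₀ ∈ P → y ∈ L)
    (hLV : ∀ y ∈ L, y ∈ V → y = 1) (hPV : ∀ g ∈ P, ∀ v ∈ V, g * v * g⁻¹ ∈ V)
    (hfix : ∀ y ∈ G, y ∈ L → (∀ v ∈ V, v ∈ G → y * v = v * y) → y = 1)
    {N : Subgroup H} (hNG : N ≤ G) (hNn : ∀ g ∈ G, ∀ y ∈ N, g * y * g⁻¹ ∈ N) (hNP : N ≤ P) : ∀ y ∈ N, y = 1 := by
  have h1 : N ≤ L := by
    intro y hy
    refine hL y (hNP hy) (hNP ?_)
    have := hNn g₀⁻¹ (inv_mem hg₀) y hy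
    rwa [inv_inv] at this
  intro y hy
  refine hfix y (hNG hy) (h1 hy) fun v hv hvG => ?_
  have h2 : y * v * y⁻¹ * v⁻¹ = 1 := by
    refine hLV _ (h1 ?_) (mul_mem (hPV y (hNP hy) v hv) (inv_mem hv))
    have h3 : y * v * y⁻¹ * v⁻¹ = y * (v * y⁻¹ * v⁻¹) := by group
    rw [h3]
    exact mul_mem hy (hNn v hvG _ (inv_mem hy))
  rw [mul_inv_eq_one, mul_inv_eq_iff_eq_mul] at h2
  exact h2

/-- **The base pair from a double coset decomposition.** `G ≤ P ∪ V g₀ P`, `X` normal in `P ∩ G`, `L = P ∩ P^{g₀}` -/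
theorem base_of_dc [Finite H] [Fact p.Prime]
    (hg₀ : g₀ ∈ G) (hXP : X ≤ P) (hXG : X ≤ G)
    (hPX : ∀ g ∈ P, g ∈ G → ∀ x ∈ X, g * x * g⁻¹ ∈ X)
    (hVP : V ≤ P)
    (hdc : ∀ g ∈ G, g ∈ P ∨ ∃ v ∈ V, v ∈ G ∧ ∃ b ∈ P, g = v * g₀ * b)
    (hY : cj g₀ X = Y) (hX : IsPGroup p X) (hX1 : X ≠ ⊥) (hXY : ¬ IsPGroup p ↥(X ⊔ Y : Subgroup H))
    (hgen : g₀ ∈ X ⊔ Y)
    (hL : ∀ y, y ∈ P → g₀⁻¹ * y * g₀ ∈ P → y ∈ L)
    (hLV : ∀ y ∈ L, y ∈ V → y = 1) (hPV : ∀ g ∈ P, ∀ v ∈ V, g * v * g⁻¹ ∈ V)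
    (hfix : ∀ y ∈ G, y ∈ L → (∀ v ∈ V, v ∈ G → y * v = v * y) → y = 1) :
    Base p G X Y (P ⊓ G) (cj g₀ (P ⊓ G)) ⊥ ∧ ∀ y ∈ G, (∀ m ∈ MK G X, y * m = m * y) → y = 1 := by
  have hcj : ∀ g ∈ P, g ∈ G → cj g X = X := by
    intro g hg hgG
    ext y
    rw [mem_cj]
    constructor
    · intro h
      have := hPX g hg hgG _ h
      have e : g * (g⁻¹ * y * g) * g⁻¹ = y := by group
      rwa [e] at this
    · intro h
      have := hPX g⁻¹ (inv_mem hg) (inv_mem hgG) _ h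
      rwa [inv_inv] at this
  have hcc : ∀ (a b : H) (Z : Subgroup H), cj a (cj b Z) = cj (a * b) Z := by
    intro a b Z
    ext y
    rw [mem_cj, mem_cj, mem_cj]
    have e : b⁻¹ * (a⁻¹ * y * a) * b = (a * b)⁻¹ * y * (a * b) := by group
    rw [e]
  -- the second case
  have hsec : ∀ g ∈ G, g ∈ P ∨ ∃ v ∈ V, v ∈ G ∧ cj v X = X ∧ cj g X = cj v Y := by
    intro g hg
    rcases hdc g hg with h | ⟨v, hv, hvG, b, hb, rfl⟩
    · exact Or.inl h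
    · refine Or.inr ⟨v, hv, hvG, hcj v (hVP hv) hvG, ?_⟩
      have hbG : b ∈ G := by
        have e : b = g₀⁻¹ * v⁻¹ * (v * g₀ * b) := by group
        rw [e]
        exact mul_mem (mul_mem (inv_mem hg₀) (inv_mem hvG)) hg
      rw [← hcc, hcj b hb hbG, ← hcc, hY]
  have hYG : Y ≤ G := by
    rw [← hY]
    rintro _ ⟨x, hx, rfl⟩
    exact mul_mem (mul_mem hg₀ (hXG hx)) (inv_mem hg₀)
  have hNX : ∀ g ∈ G, cj g X = X → g ∈ P := by
    intro g hg he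
    rcases hsec g hg with h | ⟨v, hv, hvG, h1, h2⟩
    · exact h
    · exfalso
      apply hXY
      have h3 : Y = X := by
        rw [he] at h2
        have h4 : cj v⁻¹ X = cj v⁻¹ (cj v Y) := by rw [← h2]
        rw [hcc, inv_mul_cancel, cj_one] at h4
        rw [← h4]
        exact hcj _ (inv_mem (hVP hv)) (inv_mem hvG)
      rw [h3, sup_idem]
      exact hX
  refine ⟨⟨hXG, inf_le_right, ?_, bot_le, ?_, ?_, ?_, ?_, hX, hX1, hXY, ⟨g₀, hg₀, hY⟩, ?_, ?_⟩, ?_⟩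
  · rintro _ ⟨x, hx, rfl⟩
    exact mul_mem (mul_mem hg₀ hx.2) (inv_mem hg₀)
  · have h1 : X ⊔ Y ≤ P ⊓ G ⊔ cj g₀ (P ⊓ G) := by
      rw [← hY]
      exact sup_le_sup (le_inf hXP hXG) (cj_mono (le_inf hXP hXG))
    intro g hg
    rw [sup_bot_eq]
    rcases hdc g hg with h | ⟨v, hv, hvG, b, hb, rfl⟩
    · exact Subgroup.mem_sup_left ⟨h, hg⟩
    · have hbG : b ∈ G := by
        have e : b = g₀⁻¹ * v⁻¹ * (v * g₀ * b) := by group
        rw [e]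
        exact mul_mem (mul_mem (inv_mem hg₀) (inv_mem hvG)) hg
      exact mul_mem (mul_mem (Subgroup.mem_sup_left ⟨hVP hv, hvG⟩) (h1 hgen)) (Subgroup.mem_sup_left ⟨hb, hbG⟩)
  · rintro g ⟨h1, h2⟩
    exact hPX g h1 h2
  · rw [← hY]
    rintro _ ⟨g, ⟨h1, h2⟩, rfl⟩ _ ⟨x, hx, rfl⟩
    refine ⟨g * x * g⁻¹, hPX g h1 h2 x hx, ?_⟩
    simp only [MulEquiv.coe_toMonoidHom, MulAut.conj_apply]
    group
  · rintro g hg x hx
    rw [Subgroup.mem_bot] at hg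
    rw [hg, one_mul, inv_one, mul_one]
    exact hx
  · intro g hg
    rcases hsec g hg with h | ⟨v, hv, hvG, h1, h2⟩
    · left
      rw [hcj g h hg, sup_idem]
      exact hX
    · right
      refine ⟨v⁻¹, inv_mem hvG, hcj _ (inv_mem (hVP hv)) (inv_mem hvG), ?_⟩
      rw [h2, hcc, inv_mul_cancel, cj_one]
  · -- the core
    rw [Subgroup.eq_bot_iff_forall]
    intro y hy
    have hn := Cfsg.Agent.Lib.Cores.pCore_normal (G := ↥G) p
    have hp := Cfsg.Agent.Lib.Cores.pCore_isPGroup (G := ↥G) p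
    have hNn : ∀ g ∈ G, ∀ y ∈ (pCore p ↥G).map G.subtype, g * y * g⁻¹ ∈ (pCore p ↥G).map G.subtype := by
      rintro g hg _ ⟨y, hy, rfl⟩
      exact ⟨⟨g, hg⟩ * y * ⟨g, hg⟩⁻¹, hn.conj_mem y hy ⟨g, hg⟩, rfl⟩
    have hNG : (pCore p ↥G).map G.subtype ≤ G := by
      rintro _ ⟨y, hy, rfl⟩
      exact y.2
    have hNP : (pCore p ↥G).map G.subtype ≤ P := by
      rintro _ ⟨y, hy, rfl⟩
      rcases hsec y.1 y.2 with h | ⟨v, hv, hvG, h1, h2⟩
      · exact h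
      · exfalso
        apply hXY
        -- `X ⊔ y X y⁻¹` is a `p`-group
        have h3 : IsPGroup p ↥(X.subgroupOf G ⊔ pCore p ↥G : Subgroup ↥G) := by
          refine IsPGroup.to_sup_of_normal_right ?_ hp
          exact hX.comap_of_injective G.subtype G.subtype_injective
        have h4 : IsPGroup p ↥((X.subgroupOf G ⊔ pCore p ↥G : Subgroup ↥G).map G.subtype) := h3.map _
        have h5 : X ⊔ cj (y : H) X ≤ (X.subgroupOf G ⊔ pCore p ↥G : Subgroup ↥G).map G.subtype := by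
          have hX' : ∀ x ∈ X, x ∈ (X.subgroupOf G ⊔ pCore p ↥G : Subgroup ↥G).map G.subtype := fun x hx =>
            ⟨⟨x, hXG hx⟩, Subgroup.mem_sup_left hx, rfl⟩
          refine sup_le hX' ?_
          rintro _ ⟨x, hx, rfl⟩
          refine ⟨y * ⟨x, hXG hx⟩ * y⁻¹, ?_, rfl⟩
          exact mul_mem (mul_mem (Subgroup.mem_sup_right hy) (Subgroup.mem_sup_left hx))
            (inv_mem (Subgroup.mem_sup_right hy))
        have h6 : IsPGroup p ↥(X ⊔ cj (y : H) X : Subgroup H) := h4.to_le h5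
        have h7 : X ⊔ Y = cj v⁻¹ (X ⊔ cj (y : H) X) := by
          rw [cj_sup, h2, hcc, inv_mul_cancel, cj_one, hcj _ (inv_mem (hVP hv)) (inv_mem hvG)]
        rw [h7]
        exact isPGroup_cj h6
    have h1 := eq_one_of_normal hg₀ hL hLV hPV hfix hNG hNn hNP (y : H) ⟨y, hy, rfl⟩
    exact Subtype.ext h1
  · intro y hy hyM
    have hM : ∀ g ∈ G, ∀ m ∈ MK G X, g * m * g⁻¹ ∈ MK G X := fun g hg m hm => conj_MK hg hm
    refine eq_one_of_normal (N := G ⊓ Subgroup.centralizer (MK G X : Set H)) hg₀ hL hLV hPV hfix inf_le_left ?_ ?_ y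
      (Subgroup.mem_inf.2 ⟨hy, Subgroup.mem_centralizer_iff.2 fun m hm => (hyM m hm).symm⟩)
    · rintro g hg c ⟨hc, hc'⟩
      refine Subgroup.mem_inf.2 ⟨mul_mem (mul_mem hg hc) (inv_mem hg), Subgroup.mem_centralizer_iff.2 fun m hm => ?_⟩
      have h1 := Subgroup.mem_centralizer_iff.1 hc' _ (hM g⁻¹ (inv_mem hg) m hm)
      rw [inv_inv] at h1
      calc m * (g * c * g⁻¹) = g * ((g⁻¹ * m * g) * c) * g⁻¹ := by group
        _ = _ := by rw [h1]; group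
    · rintro c ⟨hc, hc'⟩
      refine hNX c hc ?_
      ext z
      rw [mem_cj]
      constructor
      · intro h
        have h1 := Subgroup.mem_centralizer_iff.1 hc' _ (le_MK G X h)
        have h2 : c⁻¹ * z * c * c = z * c := by rw [h1]; group
        have h3 : c⁻¹ * z * c = z := mul_right_cancel h2
        rwa [h3] at h
      · intro h
        have h1 := Subgroup.mem_centralizer_iff.1 hc' _ (le_MK G X h)
        rw [mul_assoc, h1, inv_mul_cancel_left]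
        exact h

end abs

open CoxeterSystem Cfsg.Agent.ChevalleyStructure.CoxeterGeom Cfsg.Agent.Tits.Roots Cfsg.Agent.Tits.Core
  Cfsg.Agent.Tits.Exchange Cfsg.Agent.Nodes.Reps Cfsg.Agent.Nodes.BNOf Cfsg.Agent.Nodes.StabComb
  Cfsg.Agent.Nodes.Bruhat Cfsg.Agent.Nodes.OppDec Cfsg.Agent.Nodes.LeviDec Cfsg.Agent.Nodes.RGDTwGen
  Cfsg.Agent.Nodes.RGDChev Cfsg.Agent.Nodes.RGDFold Cfsg.Agent.Nodes.RGDFoldSL
open Cfsg.Agent.KFacts.RgdOpp Cfsg.Agent.KFacts.RgdAut Cfsg.Agent.KFacts.RgdDiag Cfsg.Agent.KFacts.RgdRigid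
  Cfsg.Agent.KFacts.RgdField Cfsg.Agent.KFacts.RgdTau Cfsg.Agent.KFacts.RgdNodes
open Cfsg.Lie Cfsg.Agent.ChevalleyStructure Cfsg.Agent.ChevalleyStructure.Elts
open Cfsg.Agent.ChevalleyStructure.SL2Hom (up lo mem_closure_SL2)
open Cfsg.Agent.KFacts.TwDFour.Out
open Cfsg.Agent.Nodes.RGDTwD4 Cfsg.Agent.Nodes.RGDTwNode.D4
open Cfsg.Agent.CpAut.RgdFix Cfsg.Agent.CpAut.RgdConj Cfsg.Agent.CpAut.RgdTwStd Cfsg.Agent.CpAut.RgdTwD4
open Cfsg.Agent.H28.FamFour (st_mul st_one)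
open Cfsg.Agent.H866.D4Wf.Frame Cfsg.Agent.H866.D4Wf.SLThree
open Cfsg.Agent.H911.TD (xo Fxo Psi mm)
open Cfsg.Agent.H398.RG (Base MK)
open Cfsg.Agent.H922.RG (Cx)


end Cfsg.Agent.H866.TD
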