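import Cfsg.Agent.H866.TD.Two
import Cfsg.Agent.H911.TD.Psi

/-!
# S3509, `³D₄(q)`: the second class of outer automorphisms of order three, `q = 2 mod 3`: fixed points on
`X_12 X_13 X_23` (helper866)
-/

set_option autoImplicit false
set_option linter.unusedSectionVars false
set_option maxHeartbeats 400000

namespace Cfsg.Agent.H866.TD

open CoxeterSystem Cfsg.Agent.ChevalleyStructure.CoxeterGeom Cfsg.Agent.Tits.Roots Cfsg.Agent.Tits.Core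
  Cfsg.Agent.Tits.Exchange Cfsg.Agent.Nodes.Reps Cfsg.Agent.Nodes.BNOf Cfsg.Agent.Nodes.StabComb
  Cfsg.Agent.Nodes.Bruhat Cfsg.Agent.Nodes.OppDec Cfsg.Agent.Nodes.LeviDec Cfsg.Agent.Nodes.RGDTwGen
  Cfsg.Agent.Nodes.RGDChev Cfsg.Agent.Nodes.RGDFold Cfsg.Agent.Nodes.RGDFoldSL
open Cfsg.Agent.KFacts.RgdOpp Cfsg.Agent.KFacts.RgdAut Cfsg.Agent.KFacts.RgdDiag Cfsg.Agent.KFacts.RgdRigid
  Cfsg.Agent.KFacts.RgdField Cfsg.Agent.KFacts.RgdTau Cfsg.Agent.KFacts.RgdNodes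
open Cfsg.Lie Cfsg.Agent.ChevalleyStructure Cfsg.Agent.ChevalleyStructure.Elts
open Cfsg.Agent.ChevalleyStructure.SL2Hom (up lo mem_closure_SL2)
open Cfsg.Agent.KFacts.TwDFour.Out
open Cfsg.Agent.Nodes.RGDTwD4 Cfsg.Agent.Nodes.RGDTwNode.D4
open Cfsg.Agent.CpAut.RgdFix Cfsg.Agent.CpAut.RgdConj Cfsg.Agent.CpAut.RgdTwStd Cfsg.Agent.CpAut.RgdTwD4
open Cfsg.Agent.H28.FamFour (st_mul st_one)
open Cfsg.Agent.H866.D4Wf.Frame Cfsg.Agent.H866.D4Wf.SLThree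
open Cfsg.Agent.H911.TD (xo Fxo Psi mm xo_12 xo_apply)

variable {K : Type} [Field K] [Fintype K] {q : ℕ} (hK : Fintype.card K = q ^ 3)
  {φ : K →+* K} (hφ : ∀ x, φ x = x ^ q)

section
include hK hφ

/-- `X_12 ∩ X_13 X_23 = 1` -/
theorem X12_inf {x b c : ↥(twistedD4 K q)} (hx : x ∈ X φ q ![1, 2]) (hb : b ∈ X φ q ![1, 3]) (hc : c ∈ X φ q ![2, 3])
    (h : x = b * c) : x = 1 := by
  obtain ⟨r, hr⟩ := CharP.exists K
  have : Fact r.Prime := ⟨CharP.char_is_prime K r⟩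
  have : Finite CoxeterMatrix.G₂.Group := finiteW cs
  have R := rgd' hK hφ r
  have hk : ∀ {z z1 z2 z3 : Fin 2 → ℤ}, z ∈ rts → z1 ∈ rts → z2 ∈ rts → rep cs isCartan (cs.simple 0) z = z1 →
      rep cs isCartan (cs.simple 1) z1 = z2 → rep cs isCartan (cs.simple 0) z2 = z3 → ∀ a ∈ X φ q z,
      (n hφ 0 * n hφ 1 * n hφ 0) * a * (n hφ 0 * n hφ 1 * n hφ 0)⁻¹ ∈ X φ q z3 := by
    intro z z1 z2 z3 hz hz1 hz2 e1 e2 e3 a ha
    have h1 := n_conj hK hφ 0 hz ha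
    rw [e1] at h1
    have h2 := n_conj hK hφ 1 hz1 h1
    rw [e2] at h2
    have h3 := n_conj hK hφ 0 hz2 h2
    rw [e3] at h3
    have e : n hφ 0 * n hφ 1 * n hφ 0 * a * (n hφ 0 * n hφ 1 * n hφ 0)⁻¹ =
      n hφ 0 * (n hφ 1 * (n hφ 0 * a * (n hφ 0)⁻¹) * (n hφ 1)⁻¹) * (n hφ 0)⁻¹ := by group
    rw [e]
    exact h3
  have h12 := hk (z := ![1, 2]) (z1 := ![1, 2]) (z2 := ![1, 1]) (z3 := ![0, 1]) (by decide) (by decide) (by decide)
    (by rw [rep0]; decide) (by rw [rep1]; decide) (by rw [rep0]; decide) x hx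
  have h13 := hk (z := ![1, 3]) (z1 := ![2, 3]) (z2 := ![2, 3]) (z3 := ![1, 3]) (by decide) (by decide) (by decide)
    (by rw [rep0]; decide) (by rw [rep1]; decide) (by rw [rep0]; decide) b hb
  have h23 := hk (z := ![2, 3]) (z1 := ![1, 3]) (z2 := ![1, 0]) (z3 := ![-1, 0]) (by decide) (by decide) (by decide)
    (by rw [rep0]; decide) (by rw [rep1]; decide) (by rw [rep0]; decide) c hc
  set k := n hφ 0 * n hφ 1 * n hφ 0 with hkdef
  have hU : ∀ {z : Fin 2 → ℤ}, z ∈ rts → 0 ≤ z → X φ q z ≤ RGD.Sup (X φ q) (RGD.Pos cs isCartan) := fun hz h0 =>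
    RGD.le_Sup ⟨isRoot_of_mem hz, h0⟩
  have hc1 : k * c * k⁻¹ = 1 := by
    have e : k * c * k⁻¹ = (k * b * k⁻¹)⁻¹ * (k * x * k⁻¹) := by rw [h]; group
    have h4 : k * c * k⁻¹ ∈ RGD.Sup (X φ q) (RGD.Pos cs isCartan) ⊓ UN cs isCartan (X φ q) := by
      refine Subgroup.mem_inf.2 ⟨?_, X_le_UN (isRoot_of_mem (by decide)) (fun i => by fin_cases i <;> simp) h23⟩
      rw [e]
      exact mul_mem (inv_mem (hU (by decide) (fun i => by fin_cases i <;> simp) h13))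
        (hU (by decide) (fun i => by fin_cases i <;> simp) h12)
    rw [U_inf_UN R, Subgroup.mem_bot] at h4
    exact h4
  have hc2 : c = 1 := by
    rw [mul_inv_eq_one] at hc1
    exact mul_left_cancel (hc1.trans (mul_one _).symm)
  rw [hc2, mul_one] at h
  exact X_inf hK hφ (x := ![1, 2]) (y := ![1, 3]) (by decide) (by decide) (by decide) hx (h ▸ hb)

/-- the graph automorphism is trivial on the long root groups -/
theorem st_13 (hq : IsPrimePow q) {τ : K ≃+* K} (hτ : τ ^ 3 = 1) {b : ↥(twistedD4 K q)} (hb : b ∈ X φ q ![1, 3]) :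
    st q τ b = b := by
  obtain ⟨a, ha, rfl⟩ := exists_n_conj hK hφ 1 (x := ![1, 0]) (y := ![1, 3]) (by decide) (by rw [rep1]; decide) hb
  obtain ⟨s, rfl⟩ := (mem_X hφ hK 0 a).1 (sr0_eq ▸ ha)
  rw [map_mul, map_mul, map_inv, st_n, st_Phi_zero hK hφ hq hτ]

theorem st_23 (hq : IsPrimePow q) {τ : K ≃+* K} (hτ : τ ^ 3 = 1) {b : ↥(twistedD4 K q)} (hb : b ∈ X φ q ![2, 3]) :
    st q τ b = b := by
  obtain ⟨a, ha, rfl⟩ := exists_n_conj hK hφ 0 (x := ![1, 3]) (y := ![2, 3]) (by decide) (by rw [rep0]; decide) hb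
  rw [map_mul, map_mul, map_inv, st_n, st_13 hK hφ hq hτ ha]

/-- `X_13 X_23` is normalised by `Φ₀(SL₂)` -/
theorem Phi_conj_V3 (A : Matrix.SpecialLinearGroup (Fin 2) (KD φ 0)) :
    ∀ y ∈ (X φ q ![1, 3] ⊔ X φ q ![2, 3] : Subgroup _), PhiD hφ hK 0 A * y * (PhiD hφ hK 0 A)⁻¹ ∈
      (X φ q ![1, 3] ⊔ X φ q ![2, 3] : Subgroup _) := by
  have hcm : ∀ {s v : ↥(twistedD4 K q)}, s * v = v * s → v ∈ (X φ q ![1, 3] ⊔ X φ q ![2, 3] : Subgroup _) →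
      s * v * s⁻¹ ∈ (X φ q ![1, 3] ⊔ X φ q ![2, 3] : Subgroup _) := by
    intro s v h hv
    rwa [h, mul_inv_cancel_right]
  have hcm' : ∀ {s v : ↥(twistedD4 K q)}, s * v * s⁻¹ * v⁻¹ ∈ (X φ q ![1, 3] ⊔ X φ q ![2, 3] : Subgroup _) →
      v ∈ (X φ q ![1, 3] ⊔ X φ q ![2, 3] : Subgroup _) → s * v * s⁻¹ ∈ (X φ q ![1, 3] ⊔ X φ q ![2, 3] : Subgroup _) := by
    intro s v h hv
    have := mul_mem h hv
    rwa [inv_mul_cancel_right] at this
  have h1 : ∀ s, s ∈ X φ q ![1, 0] ∨ s ∈ X φ q ![-1, 0] → ∀ y ∈ (X φ q ![1, 3] ⊔ X φ q ![2, 3] : Subgroup _),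
      s * y * s⁻¹ ∈ (X φ q ![1, 3] ⊔ X φ q ![2, 3] : Subgroup _) := by
    intro s hs
    have h2 : (X φ q ![1, 3] ⊔ X φ q ![2, 3] : Subgroup _) ≤
        (X φ q ![1, 3] ⊔ X φ q ![2, 3] : Subgroup _).comap (MulAut.conj s).toMonoidHom := by
      refine sup_le (fun v hv => ?_) (fun v hv => ?_)
      · rcases hs with hs | hs
        · exact hcm' (Subgroup.mem_sup_right (comm_sr0_del hK hφ hs hv)) (Subgroup.mem_sup_left hv)
        · exact hcm (comm_nsr0_del hK hφ hs hv) (Subgroup.mem_sup_left hv)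
      · rcases hs with hs | hs
        · exact hcm (comm_sr0_the hK hφ hs hv) (Subgroup.mem_sup_right hv)
        · exact hcm' (Subgroup.mem_sup_left (comm_nsr0_the' hK hφ hs hv)) (Subgroup.mem_sup_right hv)
    exact fun y hy => h2 hy
  have h3 : Subgroup.closure (Set.range (up (F := KD φ 0)) ∪ Set.range (lo (F := KD φ 0))) ≤
      (Subgroup.normalizer ((X φ q ![1, 3] ⊔ X φ q ![2, 3] : Subgroup _) : Set ↥(twistedD4 K q))).comap
        (PhiD hφ hK 0) := by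
    have h4 : ∀ s, s ∈ X φ q ![1, 0] ∨ s ∈ X φ q ![-1, 0] →
        s ∈ Subgroup.normalizer ((X φ q ![1, 3] ⊔ X φ q ![2, 3] : Subgroup _) : Set ↥(twistedD4 K q)) := by
      intro s hs
      rw [Subgroup.mem_normalizer_iff]
      intro y
      refine ⟨h1 s hs y, fun h => ?_⟩
      have h5 := h1 s⁻¹ (hs.imp inv_mem inv_mem) _ h
      rwa [inv_inv, mul_assoc, inv_mul_cancel_right, inv_mul_cancel_left] at h5
    rw [Subgroup.closure_le]
    rintro _ (⟨a, rfl⟩ | ⟨a, rfl⟩)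
    · exact h4 _ (Or.inl (sr0_eq ▸ (mem_X hφ hK 0 _).2 ⟨a, rfl⟩))
    · refine h4 _ (Or.inr ?_)
      have := (mem_negX hK hφ 0 (PhiD hφ hK 0 (lo a))).2 ⟨a, rfl⟩
      rwa [show (-sr 0 : Fin 2 → ℤ) = ![-1, 0] by decide] at this
  intro y hy
  exact (Subgroup.mem_normalizer_iff.1 (h3 (mem_closure_SL2 A)) y).1 hy

/-- **fixed points on `X_12 X_13 X_23`** -/
theorem fix_V2 (hq : IsPrimePow q) {τ : K ≃+* K} (hτ : τ ^ 3 = 1) {A : Matrix.SpecialLinearGroup (Fin 2) (KD φ 0)}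
    (hA : ∀ C : Matrix.SpecialLinearGroup (Fin 2) (KD φ 0), (C * A * C⁻¹).1 1 0 ≠ 0) {y : ↥(twistedD4 K q)}
    (hy : y ∈ V2 φ q) (h : xo hK hφ A τ y = y) : y ∈ X φ q ![1, 2] := by
  obtain ⟨a, ha, b, hb, c, hc, rfl⟩ := mem_V2 hK hφ hy
  have h1 : xo hK hφ A τ a = st q τ a := xo_12 hK hφ A (Or.inl ha)
  have h2 : xo hK hφ A τ (b * c) = PhiD hφ hK 0 A * (b * c) * (PhiD hφ hK 0 A)⁻¹ := by
    rw [xo_apply, map_mul, st_13 hK hφ hq hτ hb, st_23 hK hφ hq hτ hc]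
  have h3 : st q τ a ∈ X φ q ![1, 2] := (fixX_st hK hφ τ (isRoot_of_mem (by decide)) a).2 ha
  have hbc : b * c ∈ (X φ q ![1, 3] ⊔ X φ q ![2, 3] : Subgroup _) :=
    mul_mem (Subgroup.mem_sup_left hb) (Subgroup.mem_sup_right hc)
  have h4 := Phi_conj_V3 hK hφ A _ hbc
  rw [map_mul, h1, h2] at h
  have hsup : ∀ z ∈ (X φ q ![1, 3] ⊔ X φ q ![2, 3] : Subgroup _), ∃ b ∈ X φ q ![1, 3], ∃ c ∈ X φ q ![2, 3],
      z = b * c := by
    intro z hz
    have h3 : X φ q ![1, 3] ≤ Subgroup.normalizer (X φ q ![2, 3] : Set ↥(twistedD4 K q)) := by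
      intro a ha
      rw [Subgroup.mem_normalizer_iff]
      intro b
      constructor
      · intro hb
        rw [comm_del_the hK hφ ha hb, mul_inv_cancel_right]
        exact hb
      · intro hb
        have h4 := comm_del_the hK hφ (inv_mem ha) hb
        have h5 : a * b * a⁻¹ = b := by
          have h6 : a⁻¹ * (a * b * a⁻¹) = b * a⁻¹ := by group
          rw [h6] at h4
          exact (mul_right_cancel h4).symm
        rwa [h5] at hb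
    have h4 : z ∈ ((X φ q ![1, 3] ⊔ X φ q ![2, 3] : Subgroup _) : Set ↥(twistedD4 K q)) := hz
    rw [Subgroup.coe_mul_of_left_le_normalizer_right _ _ h3, Set.mem_mul] at h4
    obtain ⟨l, hl, v, hv, e⟩ := h4
    exact ⟨l, hl, v, hv, e.symm⟩
  have h5 : a⁻¹ * st q τ a = b * c * (PhiD hφ hK 0 A * (b * c) * (PhiD hφ hK 0 A)⁻¹)⁻¹ := by
    rw [eq_mul_inv_iff_mul_eq, mul_assoc, h, inv_mul_cancel_left]
  obtain ⟨b', hb', c', hc', e⟩ := hsup _ (mul_mem hbc (inv_mem h4))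
  have h6 := X12_inf hK hφ (mul_mem (inv_mem ha) h3) hb' hc' (h5.trans e)
  rw [h5, mul_inv_eq_one] at h6
  have h7 := eq_one_V3 hK hφ hA hb hc h6.symm
  rw [h7, mul_one]
  exact ha

end

end Cfsg.Agent.H866.TD
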