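import Cfsg.Agent.H866.TD.TwoB
import Cfsg.Agent.H866.TD.TwoC
import Cfsg.Agent.H899.TD.DCV
import Cfsg.Agent.H922.TD.NZero
import Cfsg.Agent.H922.TD.RFive

/-!
# S3509, `³D₄(q)`: the second class of outer automorphisms of order three, `q = 2 mod 3`, `q ≥ 5`: `MTwo` (helper866)
-/

set_option autoImplicit false
set_option linter.unusedSectionVars false
set_option maxHeartbeats 400000

namespace Cfsg.Agent.H866.TD

open CoxeterSystem Cfsg.Agent.ChevalleyStructure.CoxeterGeom Cfsg.Agent.Tits.Roots Cfsg.Agent.Tits.Core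
  Cfsg.Agent.Tits.Exchange Cfsg.Agent.Nodes.Reps Cfsg.Agent.Nodes.BNOf Cfsg.Agent.Nodes.StabComb
  Cfsg.Agent.Nodes.Bruhat Cfsg.Agent.Nodes.OppDec Cfsg.Agent.Nodes.LeviDec Cfsg.Agent.Nodes.RGDTwGen
  Cfsg.Agent.Nodes.RGDChev Cfsg.Agent.Nodes.RGDFold Cfsg.Agent.Nodes.RGDFoldSL
open Cfsg.Agent.KFacts.RgdOpp Cfsg.Agent.KFacts.RgdAut Cfsg.Agent.KFacts.RgdDiag Cfsg.Agent.KFacts.RgdRigid
  Cfsg.Agent.KFacts.RgdField Cfsg.Agent.KFacts.RgdTau Cfsg.Agent.KFacts.RgdNodes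
open Cfsg.Lie Cfsg.Agent.ChevalleyStructure Cfsg.Agent.ChevalleyStructure.Elts
open Cfsg.Agent.ChevalleyStructure.SL2Hom (up lo mem_closure_SL2)
open Cfsg.Agent.KFacts.TwDFour.Out
open Cfsg.Agent.Nodes.RGDTwD4 Cfsg.Agent.Nodes.RGDTwNode.D4
open Cfsg.Agent.CpAut.RgdFix Cfsg.Agent.CpAut.RgdConj Cfsg.Agent.CpAut.RgdTwStd Cfsg.Agent.CpAut.RgdTwD4
open Cfsg.Agent.H28.FamFour (st_mul st_one)
open Cfsg.Agent.H866.D4Wf Cfsg.Agent.H866.D4Wf.Frame Cfsg.Agent.H866.D4Wf.SLThree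
open Cfsg.Agent.H911.TD (xo Fxo Psi mm MTwo psi_up psi_up_mem psi_up_eq_one psi_range up_iff lo_iff imgH perfect_XY L0_comm)
open Cfsg.Agent.H922.TD (N0 N0_eq N0_mem map_N0 imgH_N0 N0_rp w0_sr0 w0_sr1 exists_R Cx_eq)
open Cfsg.Agent.H899.TD (PP0 VV0 exists_dcv conj_mem_VN conj_mem_L)

variable {K : Type} [Field K] [Fintype K] {q : ℕ} (hK : Fintype.card K = q ^ 3)
  {φ : K →+* K} (hφ : ∀ x, φ x = x ^ q)

/-- a perfect `p`-group is trivial -/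
theorem eq_bot_of_perfect {H : Type*} [Group H] [Finite H] {p : ℕ} [Fact p.Prime] {Z : Subgroup H} (hZ : ⁅Z, Z⁆ = Z)
    (hp : IsPGroup p Z) : Z = ⊥ := by
  by_contra hne
  have : Nontrivial Z := (Subgroup.nontrivial_iff_ne_bot Z).2 hne
  have hn := hp.isNilpotent
  have h1 : commutator Z ≠ ⊤ := by
    intro h
    exact (IsSolvable.commutator_lt_top_of_nontrivial (↥Z)).ne h
  apply h1
  rw [eq_top_iff]
  rintro ⟨d, hd⟩ -
  have h7 : (commutator Z).map Z.subtype = ⁅Z, Z⁆ := by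
    rw [commutator_def, Subgroup.map_commutator, ← MonoidHom.range_eq_map, Subgroup.range_subtype]
  have h6 : d ∈ ⁅Z, Z⁆ := by rw [hZ]; exact hd
  rw [← h7] at h6
  obtain ⟨e, he, hed⟩ := h6
  have h8 : e = ⟨d, hd⟩ := Subtype.ext hed
  rwa [← h8]

section
include hK hφ

/-- `P_J ∩ P_J^{N0} = L_J` -/
theorem mem_L_of {r : ℕ} [Fact r.Prime] [CharP K r] {y : ↥(twistedD4 K q)} (h1 : y ∈ PP0 φ q)
    (h2 : (N0 hφ)⁻¹ * y * N0 hφ ∈ PP0 φ q) : y ∈ LJ cs isCartan (T K q) (X φ q) {0} := by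
  have : Finite CoxeterMatrix.G₂.Group := finiteW cs
  have R := rgd' hK hφ r
  have hrp := N0_rp hK hφ r
  obtain ⟨l, hl, v, hv, e⟩ := (mem_PJ R).1 h2
  have h3 : y = (N0 hφ * l * (N0 hφ)⁻¹) * (N0 hφ * v * (N0 hφ)⁻¹) := by
    have aux : ∀ a y : ↥(twistedD4 K q), y = a * (a⁻¹ * y * a) * a⁻¹ := fun a y => by group
    have aux' : ∀ a l v : ↥(twistedD4 K q), a * (l * v) * a⁻¹ = (a * l * a⁻¹) * (a * v * a⁻¹) := fun a l v => by group
    conv_lhs => rw [aux (N0 hφ) y]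
    rw [e, aux']
  have h4 : y ∈ PNJ cs isCartan (T K q) (X φ q) {0} := by
    rw [h3]
    exact (mem_PNJ R).2 ⟨_, conj_mem_L hK hφ w0_sr0 w0_sr1 hrp hl, _, conj_mem_VN hK hφ w0_sr0 w0_sr1 hrp hv, rfl⟩
  rw [← PJ_inf_PNJ R]
  exact Subgroup.mem_inf.2 ⟨h1, h4⟩

theorem mtwo_two (hq : IsPrimePow q) (h3 : q % 3 = 2) (hq2 : q ≠ 2) {τ : K ≃+* K} (hτ : τ ^ 3 = 1) (hτ1 : τ ≠ 1)
    (r : ℕ) [Fact r.Prime] [CharP K r]
    (hfix : ∀ y ∈ Fxo hK hφ cZ τ, y ∈ LJ cs isCartan (T K q) (X φ q) {0} →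
      (∀ v ∈ VV0 φ q, v ∈ Fxo hK hφ cZ τ → y * v = v * y) → y = 1) :
    MTwo (MulAut.conj (PhiD hφ hK 0 cZ) * st q τ) (PhiD hφ hK 0) r := by
  have : Finite CoxeterMatrix.G₂.Group := finiteW cs
  have R := rgd' hK hφ r
  obtain ⟨n, hn0, hn⟩ := H27.Exc.exists_pow (r := r) three_pos hq hK
  have hA : (cZ : Matrix.SpecialLinearGroup (Fin 2) (KD φ 0)) ^ 3 = 1 := by
    have := H442.TD.FThree.cZ_cube (F := KD φ 0)
    rw [pow_succ, pow_two]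
    exact this
  have hA1 : (cZ : Matrix.SpecialLinearGroup (Fin 2) (KD φ 0)) ≠ 1 := by
    intro h
    have h1 := congrArg (fun M : Matrix.SpecialLinearGroup (Fin 2) (KD φ 0) => M.1 1 0) h
    simp [cZ] at h1
  have hAC : ∀ C : Matrix.SpecialLinearGroup (Fin 2) (KD φ 0), (C * cZ * C⁻¹).1 1 0 ≠ 0 := by
    intro C
    refine ne_zero_three hK hφ hq h3 0 ?_ ?_
    · rw [conj_pow, hA, mul_one, mul_inv_cancel]
    · intro h
      rw [mul_inv_eq_one] at h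
      exact hA1 (mul_left_cancel (h.trans (mul_one _).symm))
  have h4 : 4 ≤ q := by
    have := hq.one_lt
    omega
  have hXP : X φ q ![1, 2] ≤ VV0 φ q := X_le_V hK hφ 0 (by decide) (by decide) ⟨1, by decide, by decide⟩
  have hIm := imgH_N0 hK hφ cZ hq hτ hτ1
  have hY := map_N0 hK hφ cZ hq hτ hτ1
  have hXp : IsPGroup r ↥(X φ q ![1, 2] ⊓ Fxo hK hφ cZ τ : Subgroup ↥(twistedD4 K q)) :=
    R.isPGroup_Upos.to_le (le_trans inf_le_left (le_trans hXP (VJ_le_U {0})))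
  have hX1 : (X φ q ![1, 2] ⊓ Fxo hK hφ cZ τ : Subgroup ↥(twistedD4 K q)) ≠ ⊥ := by
    intro h
    have h5 : Psi hK hφ (up 1) ∈ X φ q ![1, 2] ⊓ Fxo hK hφ cZ τ := (up_iff hK hφ cZ hq hτ hτ1 _).2 ⟨1, rfl⟩
    rw [h, Subgroup.mem_bot] at h5
    exact one_ne_zero (psi_up_eq_one hK hφ h5)
  have hB := base_of_dc (H := ↥(twistedD4 K q)) (p := r) (G := Fxo hK hφ cZ τ) (P := PP0 φ q) (V := VV0 φ q)
    (L := LJ cs isCartan (T K q) (X φ q) {0}) (X := X φ q ![1, 2] ⊓ Fxo hK hφ cZ τ)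
    (Y := X φ q ![-1, -2] ⊓ Fxo hK hφ cZ τ) (g₀ := N0 hφ) (N0_mem hK hφ cZ hq hτ)
    (le_trans inf_le_left (le_trans hXP VJ_le_PJ)) inf_le_right ?_ VJ_le_PJ ?_ hY hXp hX1 ?_ ?_
    (fun y h1 h2 => mem_L_of hK hφ (r := r) h1 h2) ?_ ?_ hfix
  · refine H922.RG.mtwo_of_base' (PhiD hφ hK 0) (X := X φ q ![1, 2] ⊓ Fxo hK hφ cZ τ)
      (Y := X φ q ![-1, -2] ⊓ Fxo hK hφ cZ τ) (by rw [Cx_eq hK hφ]; exact hB.1) hn h4
      (imgH hK hφ cZ hq hτ hτ1) (exists_R hK hφ r hq h3 hτ hτ1) ?_ ?_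
    · rw [Cx_eq hK hφ]
      exact fun y hy h => hB.2 y hy h
    · intro u hu B
      exact (L0_comm hK hφ (Or.inl hu.1)).symm
  · -- `X` is normalised
    intro p hp hpG x hx
    refine Subgroup.mem_inf.2 ⟨fix_V2 hK hφ hq hτ hAC (PJ_conj_V2 hK hφ hp (X12_le hx.1)) ?_, ?_⟩
    · exact mul_mem (mul_mem hpG hx.2) (inv_mem hpG)
    · exact mul_mem (mul_mem hpG hx.2) (inv_mem hpG)
  · -- double cosets
    intro g hg
    have hg' : PhiD hφ hK 0 cZ * st q τ g = g * PhiD hφ hK 0 cZ := by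
      have h5 : PhiD hφ hK 0 cZ * st q τ g * (PhiD hφ hK 0 cZ)⁻¹ = g := hg
      exact mul_inv_eq_iff_eq_mul.1 h5
    rcases exists_dcv hK hφ hq h3 hA hA1 hτ r hg' with h | ⟨v, hv, hvG, b, hb, w, k, hk, e, h0, h1⟩
    · exact Or.inl h
    · refine Or.inr ⟨v, hv, ?_, ((N0 hφ)⁻¹ * k) * b, ?_, ?_⟩
      · exact mul_inv_eq_iff_eq_mul.2 hvG
      · have hw : w = H922.TD.w0 := by
          have h6 : w⁻¹ * H922.TD.w0 = 1 := by
            refine eq_one_of_fix cs isCartan _ fun i => ?_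
            have hi : rep cs isCartan H922.TD.w0 (sr i) = rep cs isCartan w (sr i) := by
              fin_cases i
              · exact w0_sr0.trans h0.symm
              · exact w0_sr1.trans h1.symm
            change rep cs isCartan _ (sr i) = sr i
            rw [map_mul, Module.End.mul_apply, hi, ← Module.End.mul_apply, ← map_mul, inv_mul_cancel, map_one,
              Module.End.one_apply]
          exact (inv_mul_eq_one.1 h6)
        subst hw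
        exact mul_mem (B_le_PJ (RGD.T_le_B ((N0_rp hK hφ r).unique hk))) hb
      · rw [e]
        group
  · -- not a `p`-group
    intro hp
    have h5 := eq_bot_of_perfect (perfect_XY (imgH hK hφ cZ hq hτ hτ1) h4) hp
    exact hX1 (le_bot_iff.1 (le_trans le_sup_left h5.le))
  · rw [← psi_range hK hφ cZ hq hτ hτ1, N0_eq hK]
    exact ⟨_, rfl⟩
  · intro y h1 h2
    exact eq_one_of_mem_LJ_of_mem_VJ R h1 h2
  · intro g hg v hv
    exact (Subgroup.mem_normalizer_iff.1 (PJ_le_normalizer_VJ R ({0} : Set (Fin 2)) hg) v).1 hv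

end

end Cfsg.Agent.H866.TD
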