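import Cfsg.Agent.H866.TD.TwoD
import Cfsg.Agent.H164.TD.TrA
import Cfsg.Agent.H922.TD.HFixC

/-!
# S3509, `³D₄(q)`: the second class of outer automorphisms of order three, `q = 2 mod 3`, `q ≥ 5` (helper866)
-/

set_option autoImplicit false
set_option linter.unusedSectionVars false
set_option maxHeartbeats 400000

namespace Cfsg.Agent.H866.TD

open CoxeterSystem Cfsg.Agent.ChevalleyStructure.CoxeterGeom Cfsg.Agent.Tits.Roots Cfsg.Agent.Tits.Core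
  Cfsg.Agent.Tits.Exchange Cfsg.Agent.Nodes.Reps Cfsg.Agent.Nodes.BNOf Cfsg.Agent.Nodes.StabComb
  Cfsg.Agent.Nodes.Bruhat Cfsg.Agent.Nodes.OppDec Cfsg.Agent.Nodes.LeviDec Cfsg.Agent.Nodes.RGDTwGen
  Cfsg.Agent.Nodes.RGDChev Cfsg.Agent.Nodes.RGDFold Cfsg.Agent.Nodes.RGDFoldSL
open Cfsg.Agent.KFacts.RgdOpp Cfsg.Agent.KFacts.RgdAut Cfsg.Agent.KFacts.RgdDiag Cfsg.Agent.KFacts.RgdRigid
  Cfsg.Agent.KFacts.RgdField Cfsg.Agent.KFacts.RgdTau Cfsg.Agent.KFacts.RgdNodes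
open Cfsg.Lie Cfsg.Agent.ChevalleyStructure Cfsg.Agent.ChevalleyStructure.Elts
open Cfsg.Agent.ChevalleyStructure.SL2Hom (up lo mem_closure_SL2)
open Cfsg.Agent.KFacts.TwDFour.Out
open Cfsg.Agent.Nodes.RGDTwD4 Cfsg.Agent.Nodes.RGDTwNode.D4
open Cfsg.Agent.CpAut.RgdFix Cfsg.Agent.CpAut.RgdConj Cfsg.Agent.CpAut.RgdTwStd Cfsg.Agent.CpAut.RgdTwD4
open Cfsg.Agent.H28.FamFour (st_mul st_one)
open Cfsg.Agent.H866.D4Wf Cfsg.Agent.H866.D4Wf.Frame Cfsg.Agent.H866.D4Wf.SLThree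
open Cfsg.Agent.H911.TD (Fxo MTwo)

variable {K : Type} [Field K] [Fintype K] {q : ℕ} (hK : Fintype.card K = q ^ 3)
  {φ : K →+* K} (hφ : ∀ x, φ x = x ^ q)

/-- **`MTwo` for `q = 2 mod 3`, `q ≠ 2`.** -/
theorem mtwo_all (r : ℕ) [Fact r.Prime] [CharP K r] (hq : IsPrimePow q) (h3 : q % 3 = 2) (hq2 : q ≠ 2)
    {A : Matrix.SpecialLinearGroup (Fin 2) (KD φ 0)} (hA : A ^ 3 = 1) (hA1 : A ≠ 1) {τ : K ≃+* K} (hτ : τ ^ 3 = 1)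
    (hτ1 : τ ≠ 1) : ∃ B, MTwo (MulAut.conj (PhiD hφ hK 0 (B * A * B⁻¹)) * st q τ) (PhiD hφ hK 0) r := by
  refine ⟨1, ?_⟩
  rw [one_mul, inv_one, mul_one]
  exact H164.TD.mtwo_of_cZ hK hφ hq h3 hA hA1 hτ
    (mtwo_two hK hφ hq h3 hq2 hτ hτ1 r fun y hy hL hv => H922.TD.HF.hfix hK hφ hq h3 hτ hτ1 hy hL hv)

end Cfsg.Agent.H866.TD
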